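import Mathlib
import Cfsg.Agent.Lib.helper20.Zipper

set_option autoImplicit false

namespace Cfsg.Agent.Lib.helper17.Flavell

open Pointwise
open Cfsg.Agent.Lib.helper20

universe u
variable {G : Type u} [Group G]

theorem smul_eq_of_mem_normalizer {A : Subgroup G} {x : G}
    (hx : x ∈ Subgroup.normalizer (A : Set G)) : MulAut.conj x • A = A := by
  ext y
  rw [mem_conj_smul_iff]
  have hx' := Subgroup.inv_mem _ hx
  rw [Subgroup.mem_normalizer_iff] at hx'
  have := hx' y
  simp only [inv_inv] at this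
  exact this.symm

theorem smul_top' (g : G) : MulAut.conj g • (⊤ : Subgroup G) = ⊤ := by
  ext y
  rw [mem_conj_smul_iff]
  simp

theorem smul_le_smul' {A B : Subgroup G} (g : G) (h : A ≤ B) :
    MulAut.conj g • A ≤ MulAut.conj g • B := by
  intro y hy
  rw [mem_conj_smul_iff] at hy ⊢
  exact h hy

theorem inv_smul_smul' (g : G) (H : Subgroup G) : MulAut.conj g⁻¹ • MulAut.conj g • H = H := by
  ext y
  simp

theorem smul_inv_smul' (g : G) (H : Subgroup G) : MulAut.conj g • MulAut.conj g⁻¹ • H = H := by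
  ext y
  simp

theorem coatom_eq_of_le {a b : Subgroup G} (ha : IsCoatom a) (hb : b ≠ ⊤) (h : a ≤ b) : a = b := by
  rcases eq_or_lt_of_le h with e | l
  · exact e
  · exact absurd (ha.2 b l) hb

theorem isCoatom_smul {M : Subgroup G} (hM : IsCoatom M) (g : G) :
    IsCoatom (MulAut.conj g • M) := by
  constructor
  · intro h
    apply hM.1
    have := congrArg (fun X => MulAut.conj g⁻¹ • X) h
    simp only [inv_smul_smul', smul_top'] at this
    exact this
  · intro b hb
    have h1 : M < MulAut.conj g⁻¹ • b := by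
      refine lt_of_le_of_ne ?_ ?_
      · have := smul_le_smul' g⁻¹ hb.le
        rwa [inv_smul_smul'] at this
      · intro h2
        apply hb.ne
        rw [h2, smul_inv_smul']
    have h2 := hM.2 _ h1
    have := congrArg (fun X => MulAut.conj g • X) h2
    simp only [smul_inv_smul', smul_top'] at this
    exact this

theorem card_conj_smul (g : G) (A : Subgroup G) :
    Nat.card (MulAut.conj g • A : Subgroup G) = Nat.card A :=
  (Nat.card_congr (Subgroup.equivSMul (MulAut.conj g) A).toEquiv).symm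

theorem normalClosure_smul_top {A : Subgroup G} (g : G)
    (h : Subgroup.normalClosure (A : Set G) = ⊤) :
    Subgroup.normalClosure ((MulAut.conj g • A : Subgroup G) : Set G) = ⊤ := by
  rw [eq_top_iff, ← h]
  apply Subgroup.normalClosure_le_normal
  intro a ha
  have h1 : g * a * g⁻¹ ∈ Subgroup.normalClosure ((MulAut.conj g • A : Subgroup G) : Set G) :=
    Subgroup.subset_normalClosure (conj_mem_conj_smul ha)
  have h2 := (Subgroup.normalClosure_normal
    (s := ((MulAut.conj g • A : Subgroup G) : Set G))).conj_mem _ h1 g⁻¹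
  simpa [mul_assoc] using h2

theorem eq_top_of_isSubnormal_of_normalClosure {X : Type*} [Group X] {H : Subgroup X}
    (hs : H.IsSubnormal) (hn : Subgroup.normalClosure (H : Set X) = ⊤) : H = ⊤ := by
  rcases hs.lt_normal with e | ⟨K, hK, hHK, hKtop⟩
  · exact e
  · exfalso
    have : Subgroup.normalClosure (H : Set X) ≤ K := Subgroup.normalClosure_le_normal hHK
    rw [hn] at this
    exact hKtop.ne (top_le_iff.mp this)

/-- The family of proper subgroups containing `A` that are generated by their own conjugates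
of `A`. -/
def Fam (A : Subgroup G) : Set (Subgroup G) :=
  {H : Subgroup G | A ≤ H ∧ H ≠ ⊤ ∧
    Subgroup.normalClosure ((A.subgroupOf H : Subgroup ↥H) : Set ↥H) = ⊤}

theorem nc_mono {A H Y : Subgroup G} (_hAH : A ≤ H) (hHY : H ≤ Y)
    (hn : Subgroup.normalClosure ((A.subgroupOf H : Subgroup ↥H) : Set ↥H) = ⊤)
    (N : Subgroup ↥Y) [N.Normal] (hAN : A.subgroupOf Y ≤ N) : H.subgroupOf Y ≤ N := by
  intro y hy
  have hy' : (y : G) ∈ H := by simpa [Subgroup.mem_subgroupOf] using hy
  have hle : Subgroup.normalClosure ((A.subgroupOf H : Subgroup ↥H) : Set ↥H) ≤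
      N.comap (Subgroup.inclusion hHY) := by
    apply Subgroup.normalClosure_le_normal
    intro a ha
    show Subgroup.inclusion hHY a ∈ N
    apply hAN
    simpa [Subgroup.mem_subgroupOf] using ha
  have h1 : (⟨(y : G), hy'⟩ : ↥H) ∈ N.comap (Subgroup.inclusion hHY) :=
    hle (hn ▸ Subgroup.mem_top _)
  have h2 : Subgroup.inclusion hHY ⟨(y : G), hy'⟩ ∈ N := h1
  have e : Subgroup.inclusion hHY ⟨(y : G), hy'⟩ = y := Subtype.ext rfl
  rwa [e] at h2

theorem fam_subset {A X : Subgroup G} (hAX : A ≤ X)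
    (hn : Subgroup.normalClosure ((A.subgroupOf X : Subgroup ↥X) : Set ↥X) = ⊤) :
    Fam X ⊆ Fam A := by
  rintro H ⟨hXH, hH, hnH⟩
  refine ⟨hAX.trans hXH, hH, ?_⟩
  rw [eq_top_iff, ← hnH]
  apply Subgroup.normalClosure_le_normal
  exact nc_mono hAX hXH hn _ Subgroup.le_normalClosure

theorem exists_subn_closure [Finite G] {A H : Subgroup G} (hAH : A ≤ H) :
    ∃ X : Subgroup G, A ≤ X ∧ X ≤ H ∧ (X.subgroupOf H).IsSubnormal ∧
      Subgroup.normalClosure ((A.subgroupOf X : Subgroup ↥X) : Set ↥X) = ⊤ := by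
  have gen : ∀ n : ℕ, ∀ X : Subgroup G, Nat.card X = n → A ≤ X → X ≤ H →
      (X.subgroupOf H).IsSubnormal →
      ∃ X' : Subgroup G, A ≤ X' ∧ X' ≤ H ∧ (X'.subgroupOf H).IsSubnormal ∧
        Subgroup.normalClosure ((A.subgroupOf X' : Subgroup ↥X') : Set ↥X') = ⊤ := by
    intro n
    induction n using Nat.strong_induction_on with
    | _ n ih =>
      intro X hX hAX hXH hs
      by_cases c : Subgroup.normalClosure ((A.subgroupOf X : Subgroup ↥X) : Set ↥X) = ⊤
      · exact ⟨X, hAX, hXH, hs, c⟩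
      · set N := (Subgroup.normalClosure ((A.subgroupOf X : Subgroup ↥X) : Set ↥X)).map
          X.subtype with hN
        have hNX : N ≤ X := Subgroup.map_subtype_le _
        have hAN : A ≤ N := by
          intro a ha
          exact ⟨⟨a, hAX ha⟩, Subgroup.subset_normalClosure
            (by simpa [Subgroup.mem_subgroupOf] using ha), rfl⟩
        have hNsub : N.subgroupOf X =
            Subgroup.normalClosure ((A.subgroupOf X : Subgroup ↥X) : Set ↥X) := by
          rw [hN]
          exact Subgroup.comap_map_eq_self_of_injective (Subgroup.subtype_injective X) _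
        have hNsubn : (N.subgroupOf X).IsSubnormal := by
          rw [hNsub]
          exact (Subgroup.normalClosure_normal).isSubnormal
        have hNH : (N.subgroupOf H).IsSubnormal := subn_trans hNX hXH hNsubn hs
        have hlt : Nat.card N < Nat.card X := by
          by_contra hh
          have e := Subgroup.eq_of_le_of_card_ge hNX (not_lt.mp hh)
          apply c
          rw [← hNsub, e]
          exact Subgroup.subgroupOf_self X
        exact ih _ (hX ▸ hlt) N rfl hAN (hNX.trans hXH) hNH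
  exact gen _ H rfl hAH le_rfl (by rw [Subgroup.subgroupOf_self]; exact Subgroup.IsSubnormal.top)

theorem subn_induction {B M W : Subgroup G} (hBM : B ≤ M) (hs : (B.subgroupOf M).IsSubnormal)
    (hBW : B ≤ W) (hW : ∀ z ∈ M, MulAut.conj z • B ≤ W → z ∈ W) : M ≤ W := by
  have gen : ∀ H : Subgroup ↥M, H.IsSubnormal → B.subgroupOf M ≤ H → H.map M.subtype ≤ W →
      M ≤ W := by
    intro H hH
    induction hH with
    | top =>
      intro _ h m hm
      exact h ⟨⟨m, hm⟩, Subgroup.mem_top _, rfl⟩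
    | step H K h_le hK h_normal ih =>
      intro hBH hHW
      apply ih (hBH.trans h_le)
      rintro _ ⟨k, hk, rfl⟩
      apply hW _ k.2
      rw [conj_smul_le_iff]
      intro s hs
      apply hHW
      have hsM : s ∈ M := hBM hs
      have hsH : (⟨s, hsM⟩ : ↥M) ∈ H := hBH (by simpa [Subgroup.mem_subgroupOf] using hs)
      have hconj : k * ⟨s, hsM⟩ * k⁻¹ ∈ H := by
        have := h_normal.conj_mem ⟨⟨s, hsM⟩, h_le hsH⟩
          (by simpa [Subgroup.mem_subgroupOf] using hsH) ⟨k, hk⟩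
        simpa [Subgroup.mem_subgroupOf] using this
      exact ⟨k * ⟨s, hsM⟩ * k⁻¹, hconj, by simp⟩
  exact gen _ hs le_rfl (by
    rintro _ ⟨b, hb, rfl⟩
    exact hBW (by simpa [Subgroup.mem_subgroupOf] using hb))

/-- The hypothesis package for the configuration to be refuted. -/
structure Hyp (A M : Subgroup G) : Prop where
  coatom : IsCoatom M
  le : A ≤ M
  nsub : ¬ (A.subgroupOf M).IsSubnormal
  sub : ∀ H : Subgroup G, A ≤ H → H ≠ ⊤ → ¬ H ≤ M → (A.subgroupOf H).IsSubnormal
  nc : Subgroup.normalClosure (A : Set G) = ⊤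
  ih : ∀ T : Subgroup G, Nat.card A < Nat.card T → T ≠ ⊤ →
    Subgroup.normalClosure (T : Set G) = ⊤ →
      (sSup (Fam T) = ⊤ ∨ ∃! M : Subgroup G, IsCoatom M ∧ T ≤ M)

theorem Hyp.conj {A M : Subgroup G} (h : Hyp A M) (g : G) :
    Hyp (MulAut.conj g • A) (MulAut.conj g • M) where
  coatom := isCoatom_smul h.coatom g
  le := smul_le_smul' g h.le
  nsub := by
    intro hs
    have := subn_conj g⁻¹ hs
    rw [inv_smul_smul', inv_smul_smul'] at this
    exact h.nsub this
  sub := by
    intro H hAH hH hHM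
    have h1 : A ≤ MulAut.conj g⁻¹ • H := by
      have := smul_le_smul' g⁻¹ hAH
      rwa [inv_smul_smul'] at this
    have h2 : MulAut.conj g⁻¹ • H ≠ ⊤ := by
      intro e
      apply hH
      have := congrArg (fun X => MulAut.conj g • X) e
      simp only [smul_inv_smul', smul_top'] at this
      exact this
    have h3 : ¬ MulAut.conj g⁻¹ • H ≤ M := by
      intro hle
      apply hHM
      have := smul_le_smul' g hle
      rwa [smul_inv_smul'] at this
    have := subn_conj g (h.sub _ h1 h2 h3)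
    rwa [smul_inv_smul'] at this
  nc := normalClosure_smul_top g h.nc
  ih := by
    intro T hT
    exact h.ih T (by rwa [card_conj_smul] at hT)

theorem normalizer_le {A M : Subgroup G} [Finite G] (h : Hyp A M) :
    Subgroup.normalizer (A : Set G) ≤ M := by
  intro n hn
  have hnA : MulAut.conj n⁻¹ • A = A := smul_eq_of_mem_normalizer (Subgroup.inv_mem _ hn)
  have hnA2 : MulAut.conj n • A = A := smul_eq_of_mem_normalizer hn
  by_cases c : MulAut.conj n • M = M
  · have hnM : n ∈ Subgroup.normalizer (M : Set G) := mem_normalizer_of_conj_smul_le c.le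
    have hle : M ≤ Subgroup.normalizer (M : Set G) := Subgroup.le_normalizer
    rcases eq_or_lt_of_le hle with e | lt
    · exact e ▸ hnM
    · exfalso
      have htop := h.coatom.2 _ lt
      have hnorm : M.Normal := ⟨fun x hx g => by
        have hg : g ∈ Subgroup.normalizer (M : Set G) := htop ▸ Subgroup.mem_top g
        exact (Subgroup.mem_normalizer_iff.mp hg x).mp hx⟩
      apply h.coatom.1
      rw [eq_top_iff, ← h.nc]
      exact Subgroup.normalClosure_le_normal h.le
  · exfalso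
    apply h.nsub
    have hc := isCoatom_smul h.coatom n
    have hle : A ≤ MulAut.conj n • M := by
      have := smul_le_smul' n h.le
      rwa [hnA2] at this
    have hnot : ¬ MulAut.conj n • M ≤ M := fun hle2 => c (coatom_eq_of_le hc h.coatom.1 hle2)
    have s := h.sub _ hle hc.1 hnot
    have s' := subn_conj n⁻¹ s
    rwa [hnA, inv_smul_smul'] at s'

theorem core_lemma [Finite G] {A₁ M₁ A₂ M₂ U₁ U₂ : Subgroup G} (h₁ : Hyp A₁ M₁)
    (h₂ : Hyp A₂ M₂) (hc : Nat.card A₁ = Nat.card A₂) (hne : A₁ ≠ A₂) (hU₁ : IsCoatom U₁)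
    (hU₂ : IsCoatom U₂) (hU : U₁ ≠ U₂) (h1 : A₁ ⊔ A₂ ≤ U₁) (h2 : A₁ ⊔ A₂ ≤ U₂) :
    M₁ ≠ M₂ ∧ A₁ ⊔ A₂ ≤ M₁ ∧ A₁ ⊔ A₂ ≤ M₂ := by
  have hA₁T : A₁ ≤ A₁ ⊔ A₂ := le_sup_left
  have hA₂T : A₂ ≤ A₁ ⊔ A₂ := le_sup_right
  have hTne : A₁ ⊔ A₂ ≠ ⊤ := fun h => hU₁.1 (top_le_iff.mp (h ▸ h1))
  have hcard : Nat.card A₁ < Nat.card (A₁ ⊔ A₂ : Subgroup G) := by
    by_contra hh
    have e := Subgroup.eq_of_le_of_card_ge hA₁T (not_lt.mp hh)
    have h3 : A₂ ≤ A₁ := by
      have := hA₂T
      rwa [← e] at this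
    exact hne (Subgroup.eq_of_le_of_card_ge h3 hc.le).symm
  have hnc : Subgroup.normalClosure ((A₁ ⊔ A₂ : Subgroup G) : Set G) = ⊤ := by
    rw [eq_top_iff, ← h₁.nc]
    exact Subgroup.normalClosure_mono hA₁T
  have hY : sSup (Fam (A₁ ⊔ A₂)) = ⊤ := by
    rcases h₁.ih _ hcard hTne hnc with h | ⟨M, _, huniq⟩
    · exact h
    · exact absurd ((huniq U₁ ⟨hU₁, h1⟩).trans (huniq U₂ ⟨hU₂, h2⟩).symm) hU
  have key : ∀ H ∈ Fam (A₁ ⊔ A₂), H ≤ A₁ ⊔ A₂ ∨ H ≤ M₁ ∨ H ≤ M₂ := by
    intro H hH
    by_cases c1 : H ≤ M₁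
    · exact Or.inr (Or.inl c1)
    by_cases c2 : H ≤ M₂
    · exact Or.inr (Or.inr c2)
    left
    have s1 := h₁.sub H (hA₁T.trans hH.1) hH.2.1 c1
    have s2 := h₂.sub H (hA₂T.trans hH.1) hH.2.1 c2
    have s := subn_sup (hA₁T.trans hH.1) (hA₂T.trans hH.1) s1 s2
    have := eq_top_of_isSubnormal_of_normalClosure s hH.2.2
    exact Subgroup.subgroupOf_eq_top.mp this
  have top_not : ∀ X : Subgroup G, X ≠ ⊤ → ¬ (∀ H ∈ Fam (A₁ ⊔ A₂), H ≤ X) := by
    intro X hX hall
    apply hX
    rw [eq_top_iff, ← hY]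
    exact sSup_le hall
  have hTM₂ : A₁ ⊔ A₂ ≤ M₂ := by
    by_contra hn
    by_cases c : A₁ ⊔ A₂ ≤ M₁
    · apply top_not M₁ h₁.coatom.1
      intro H hH
      rcases key H hH with h | h | h
      · exact h.trans c
      · exact h
      · exact absurd (hH.1.trans h) hn
    · apply top_not _ hTne
      intro H hH
      rcases key H hH with h | h | h
      · exact h
      · exact absurd (hH.1.trans h) c
      · exact absurd (hH.1.trans h) hn
  have hTM₁ : A₁ ⊔ A₂ ≤ M₁ := by
    by_contra hn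
    apply top_not M₂ h₂.coatom.1
    intro H hH
    rcases key H hH with h | h | h
    · exact h.trans hTM₂
    · exact absurd (hH.1.trans h) hn
    · exact h
  refine ⟨?_, hTM₁, hTM₂⟩
  intro heq
  apply top_not M₁ h₁.coatom.1
  intro H hH
  rcases key H hH with h | h | h
  · exact h.trans hTM₁
  · exact h
  · exact heq ▸ h

theorem conj_eq_of_le [Finite G] {A M L : Subgroup G} (h : Hyp A M) {m : G} (hm : m ∈ M)
    (hL : IsCoatom L) (hLM : L ≠ M) (h1 : A ≤ L) (h2 : MulAut.conj m • A ≤ L) :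
    MulAut.conj m • A = A := by
  by_contra hne
  have hmM : MulAut.conj m • M = M := Subgroup.conj_smul_eq_self_of_mem hm
  have h' : Hyp (MulAut.conj m • A) M := by
    have := h.conj m
    rwa [hmM] at this
  have := core_lemma h h' (card_conj_smul m A).symm (Ne.symm hne) hL h.coatom hLM
    (sup_le h1 h2) (sup_le h.le h'.le)
  exact this.1 rfl

theorem inf_le_normalizer [Finite G] {A M H : Subgroup G} (h : Hyp A M) (hAH : A ≤ H)
    (hH : H ≠ ⊤) (hHM : ¬ H ≤ M) : H ⊓ M ≤ Subgroup.normalizer (A : Set G) := by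
  intro m hm
  obtain ⟨L, hL, hHL⟩ := (eq_top_or_exists_le_coatom H).resolve_left hH
  have hLM : L ≠ M := fun e => hHM (e ▸ hHL)
  have h2 : MulAut.conj m • A ≤ L := by
    rw [conj_smul_le_iff]
    intro s hs
    exact L.mul_mem (L.mul_mem (hHL hm.1) (hHL (hAH hs))) (L.inv_mem (hHL hm.1))
  have := conj_eq_of_le h hm.2 hL hLM (hAH.trans hHL) h2
  exact mem_normalizer_of_conj_smul_le this.le

theorem le_normalizer_of_le [Finite G] {A₁ M₁ A₂ M₂ U₁ U₂ : Subgroup G} (h₁ : Hyp A₁ M₁)
    (h₂ : Hyp A₂ M₂) (hc : Nat.card A₁ = Nat.card A₂) (hU₁ : IsCoatom U₁) (hU₂ : IsCoatom U₂)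
    (hU : U₁ ≠ U₂) (a1 : A₁ ≤ U₁) (a2 : A₁ ≤ U₂) (b1 : A₂ ≤ U₁) (b2 : A₂ ≤ U₂) :
    A₂ ≤ Subgroup.normalizer (A₁ : Set G) := by
  by_cases hne : A₁ = A₂
  · subst hne
    exact Subgroup.le_normalizer
  obtain ⟨hM, hT1, hT2⟩ := core_lemma h₁ h₂ hc hne hU₁ hU₂ hU (sup_le a1 b1) (sup_le a2 b2)
  have hnot : ¬ M₂ ≤ M₁ := fun hle => hM (coatom_eq_of_le h₂.coatom h₁.coatom.1 hle).symm
  have := inf_le_normalizer h₁ (le_sup_left.trans hT2) h₂.coatom.1 hnot
  exact fun x hx => this ⟨h₂.le hx, (le_sup_right.trans hT1) hx⟩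

theorem caseII [Finite G] {A M K : Subgroup G} (h : Hyp A M) (hK : IsCoatom K) (hAK : A ≤ K)
    (hKM : K ≠ M) : False := by
  have hNA := normalizer_le h
  have hKM' : ¬ K ≤ M := fun hle => hKM (coatom_eq_of_le hK h.coatom.1 hle)
  have hKN : ¬ K ≤ Subgroup.normalizer (A : Set G) := fun hle => hKM' (hle.trans hNA)
  have hAsubK := h.sub K hAK hK.1 hKM'
  obtain ⟨l, hlK, hlN, hl⟩ := exists_conj_le_normalizer_rel hAK hAsubK hKN
  have hBN : MulAut.conj l • A ≤ Subgroup.normalizer (A : Set G) := conj_smul_le_iff.mpr hl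
  have hBM : MulAut.conj l • A ≤ M := hBN.trans hNA
  have hBK : MulAut.conj l • A ≤ K := by
    rw [conj_smul_le_iff]
    intro s hs
    exact K.mul_mem (K.mul_mem hlK (hAK hs)) (K.inv_mem hlK)
  have hBA : A ≠ MulAut.conj l • A := by
    intro e
    exact hlN (mem_normalizer_of_conj_smul_le e.symm.le)
  have hB' : Hyp (MulAut.conj l • A) (MulAut.conj l • M) := h.conj l
  have hcB : Nat.card A = Nat.card (MulAut.conj l • A : Subgroup G) := (card_conj_smul l A).symm
  obtain ⟨hMM', _, hT2⟩ := core_lemma h hB' hcB hBA hK h.coatom hKM (sup_le hAK hBK)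
    (sup_le h.le hBM)
  have hAM' : A ≤ MulAut.conj l • M := le_sup_left.trans hT2
  have hM'coatom : IsCoatom (MulAut.conj l • M) := hB'.coatom
  have hM'M : ¬ MulAut.conj l • M ≤ M := fun hle =>
    hMM' (coatom_eq_of_le hM'coatom h.coatom.1 hle).symm
  -- the family of conjugates inside `M ⊓ M'`
  let 𝒮 : Set (Subgroup G) :=
    {C | (∃ g : G, C = MulAut.conj g • A) ∧ C ≤ M ∧ C ≤ MulAut.conj l • M}
  have norm_of : ∀ x : G, (∀ C ∈ 𝒮, MulAut.conj x • C ∈ 𝒮) →
      x ∈ Subgroup.normalizer ((sSup 𝒮 : Subgroup G) : Set G) := by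
    intro x hx
    apply mem_normalizer_of_conj_smul_le
    have h1 : sSup 𝒮 ≤ MulAut.conj x⁻¹ • sSup 𝒮 := by
      apply sSup_le
      intro C hC
      have h2 : MulAut.conj x • C ≤ sSup 𝒮 := le_sSup (hx C hC)
      have h3 := smul_le_smul' x⁻¹ h2
      rwa [inv_smul_smul'] at h3
    have h4 := smul_le_smul' x h1
    rwa [smul_inv_smul'] at h4
  have hA𝒮 : A ∈ 𝒮 := ⟨⟨1, by rw [map_one, one_smul]⟩, h.le, hAM'⟩
  have hB𝒮 : MulAut.conj l • A ∈ 𝒮 := ⟨⟨l, rfl⟩, hBM, hB'.le⟩
  have hSM : sSup 𝒮 ≤ M := sSup_le (fun C hC => hC.2.1)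
  -- an element outside `M` normalizing `S`
  have hAsubM' := h.sub _ hAM' hM'coatom.1 hM'M
  have hM'N : ¬ MulAut.conj l • M ≤ Subgroup.normalizer (A : Set G) :=
    fun hle => hM'M (hle.trans hNA)
  obtain ⟨x, hxM', hxN, hx⟩ := exists_conj_le_normalizer_rel hAM' hAsubM' hM'N
  have hxM : x ∉ M := fun hxM =>
    hxN (inf_le_normalizer h hAM' hM'coatom.1 hM'M ⟨hxM', hxM⟩)
  have hAxN : MulAut.conj x • A ≤ Subgroup.normalizer (A : Set G) := conj_smul_le_iff.mpr hx
  have hAxM : MulAut.conj x • A ≤ M := hAxN.trans hNA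
  have hAxM' : MulAut.conj x • A ≤ MulAut.conj l • M := by
    rw [conj_smul_le_iff]
    intro s hs
    exact Subgroup.mul_mem _ (Subgroup.mul_mem _ hxM' (hAM' hs)) (Subgroup.inv_mem _ hxM')
  have hxinv : ∀ C ∈ 𝒮, MulAut.conj x⁻¹ • C ∈ 𝒮 := by
    rintro C ⟨⟨g, rfl⟩, hCM, hCM'⟩
    refine ⟨⟨x⁻¹ * g, by rw [map_mul, mul_smul]⟩, ?_, ?_⟩
    · have hn : MulAut.conj g • A ≤
          Subgroup.normalizer ((MulAut.conj x • A : Subgroup G) : Set G) :=
        le_normalizer_of_le (h.conj x) (h.conj g) (by rw [card_conj_smul, card_conj_smul])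
          h.coatom hM'coatom (Ne.symm hMM').symm hAxM hAxM' hCM hCM'
      have hn2 := hn.trans (normalizer_le (h.conj x))
      have h3 := smul_le_smul' x⁻¹ hn2
      rwa [inv_smul_smul'] at h3
    · rw [conj_smul_le_iff]
      intro s hs
      have hxi : x⁻¹ ∈ MulAut.conj l • M := Subgroup.inv_mem _ hxM'
      exact Subgroup.mul_mem _ (Subgroup.mul_mem _ hxi (hCM' hs)) (Subgroup.inv_mem _ hxi)
  have hxS : x⁻¹ ∈ Subgroup.normalizer ((sSup 𝒮 : Subgroup G) : Set G) := norm_of x⁻¹ hxinv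
  have hNS_ne : Subgroup.normalizer ((sSup 𝒮 : Subgroup G) : Set G) ≠ ⊤ := by
    intro htop
    have hnorm : (sSup 𝒮 : Subgroup G).Normal := ⟨fun y hy g => by
      have hg : g ∈ Subgroup.normalizer ((sSup 𝒮 : Subgroup G) : Set G) :=
        htop ▸ Subgroup.mem_top g
      exact (Subgroup.mem_normalizer_iff.mp hg y).mp hy⟩
    apply h.coatom.1
    rw [eq_top_iff, ← h.nc]
    exact (Subgroup.normalClosure_le_normal (le_sSup hA𝒮 : A ≤ sSup 𝒮)).trans hSM
  obtain ⟨U, hU, hNU⟩ := (eq_top_or_exists_le_coatom _).resolve_left hNS_ne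
  have hUM : M ≠ U := by
    intro e
    apply hxM
    have h1 : x⁻¹ ∈ M := e ▸ hNU hxS
    simpa using M.inv_mem h1
  have hSU : sSup 𝒮 ≤ U := Subgroup.le_normalizer.trans hNU
  have hW : ∀ z ∈ M, MulAut.conj z • MulAut.conj l • A ≤
      M ⊓ Subgroup.normalizer (A : Set G) ⊓ Subgroup.normalizer ((sSup 𝒮 : Subgroup G) : Set G) →
      z ∈ M ⊓ Subgroup.normalizer (A : Set G) ⊓
        Subgroup.normalizer ((sSup 𝒮 : Subgroup G) : Set G) := by
    intro z hz hzB
    have hzBM : MulAut.conj z • MulAut.conj l • A ≤ M := hzB.trans (inf_le_left.trans inf_le_left)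
    have hzBU : MulAut.conj z • MulAut.conj l • A ≤ U := hzB.trans (inf_le_right.trans hNU)
    have hypzB : Hyp (MulAut.conj z • MulAut.conj l • A) (MulAut.conj z • MulAut.conj l • M) :=
      hB'.conj z
    have hzi : z⁻¹ ∈ M := M.inv_mem hz
    have key : ∀ C ∈ 𝒮, MulAut.conj z⁻¹ • C ≤ MulAut.conj l • M := by
      rintro C ⟨⟨g, rfl⟩, hCM, hCM'⟩
      have hCU : MulAut.conj g • A ≤ U :=
        (le_sSup (show MulAut.conj g • A ∈ 𝒮 from ⟨⟨g, rfl⟩, hCM, hCM'⟩)).trans hSU
      have hn : MulAut.conj g • A ≤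
          Subgroup.normalizer ((MulAut.conj z • MulAut.conj l • A : Subgroup G) : Set G) :=
        le_normalizer_of_le hypzB (h.conj g)
          (by rw [card_conj_smul, card_conj_smul, card_conj_smul])
          h.coatom hU hUM hzBM hzBU hCM hCU
      have hn2 := hn.trans (normalizer_le hypzB)
      have h3 := smul_le_smul' z⁻¹ hn2
      rwa [inv_smul_smul'] at h3
    have hzS : z⁻¹ ∈ Subgroup.normalizer ((sSup 𝒮 : Subgroup G) : Set G) := by
      apply norm_of
      intro C hC
      have hk := key C hC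
      obtain ⟨⟨g, rfl⟩, hCM, hCM'⟩ := hC
      refine ⟨⟨z⁻¹ * g, by rw [map_mul, mul_smul]⟩, ?_, hk⟩
      rw [conj_smul_le_iff]
      intro s hs
      exact M.mul_mem (M.mul_mem hzi (hCM hs)) (M.inv_mem hzi)
    have hzA : z⁻¹ ∈ Subgroup.normalizer (A : Set G) := by
      have := conj_eq_of_le h hzi hM'coatom (Ne.symm hMM') hAM' (key A hA𝒮)
      exact mem_normalizer_of_conj_smul_le this.le
    refine ⟨⟨hz, ?_⟩, ?_⟩
    · simpa using Subgroup.inv_mem _ hzA
    · simpa using Subgroup.inv_mem _ hzS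
  have hBsubM := hB'.sub M hBM h.coatom.1
    (fun hle => hMM' (coatom_eq_of_le h.coatom hM'coatom.1 hle))
  have hBW : MulAut.conj l • A ≤ M ⊓ Subgroup.normalizer (A : Set G) ⊓
      Subgroup.normalizer ((sSup 𝒮 : Subgroup G) : Set G) :=
    fun b hb => ⟨⟨hBM hb, hBN hb⟩, Subgroup.le_normalizer (le_sSup hB𝒮 hb)⟩
  have hMW := subn_induction hBM hBsubM hBW hW
  have hMU : M ≤ U := hMW.trans (inf_le_right.trans hNU)
  exact hUM (coatom_eq_of_le h.coatom hU.1 hMU)

/-- **Flavell's theorem**: a proper subgroup `A` with full normal closure either lies in a unique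
maximal subgroup or the group is generated by the proper subgroups `H ≥ A` with `H = ⟨A^H⟩`. -/
theorem flavell_aux [Finite G] : ∀ (n : ℕ) (A : Subgroup G), Nat.card G - Nat.card A = n →
    A ≠ ⊤ → Subgroup.normalClosure (A : Set G) = ⊤ →
    (sSup (Fam A) = ⊤ ∨ ∃! M : Subgroup G, IsCoatom M ∧ A ≤ M) := by
  intro n
  induction n using Nat.strong_induction_on with
  | _ n IH =>
    intro A hn hAtop hnc
    by_cases hY : sSup (Fam A) = ⊤
    · exact Or.inl hY
    right
    have hAFam : A ∈ Fam A := ⟨le_rfl, hAtop, by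
      rw [Subgroup.subgroupOf_self]
      exact eq_top_iff.mpr Subgroup.le_normalClosure⟩
    have hAY : A ≤ sSup (Fam A) := le_sSup hAFam
    have hYnc : Subgroup.normalClosure
        ((A.subgroupOf (sSup (Fam A)) : Subgroup ↥(sSup (Fam A))) : Set ↥(sSup (Fam A))) = ⊤ := by
      rw [eq_top_iff]
      intro y _
      have hle : sSup (Fam A) ≤ (Subgroup.normalClosure
          ((A.subgroupOf (sSup (Fam A)) : Subgroup ↥(sSup (Fam A))) :
            Set ↥(sSup (Fam A)))).map (Subgroup.subtype _) := by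
        apply sSup_le
        intro H hH
        have hHY : H ≤ sSup (Fam A) := le_sSup hH
        have := nc_mono hH.1 hHY hH.2.2 (Subgroup.normalClosure
          ((A.subgroupOf (sSup (Fam A)) : Subgroup ↥(sSup (Fam A))) : Set ↥(sSup (Fam A))))
          Subgroup.le_normalClosure
        intro x hx
        exact ⟨⟨x, hHY hx⟩, this (by simpa [Subgroup.mem_subgroupOf] using hx), rfl⟩
      obtain ⟨y', hy', e⟩ := hle y.2
      have : y' = y := Subtype.ext e
      exact this ▸ hy'
    have closure_le : ∀ H : Subgroup G, A ≤ H → H ≠ ⊤ → ∃ X : Subgroup G, A ≤ X ∧ X ≤ H ∧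
        (X.subgroupOf H).IsSubnormal ∧
        Subgroup.normalClosure ((A.subgroupOf X : Subgroup ↥X) : Set ↥X) = ⊤ ∧
        X ≤ sSup (Fam A) := by
      intro H hAH hH
      obtain ⟨X, h1, h2, h3, h4⟩ := exists_subn_closure hAH
      exact ⟨X, h1, h2, h3, h4, le_sSup ⟨h1, fun e => hH (top_le_iff.mp (e ▸ h2)), h4⟩⟩
    have hYsub : ∀ H : Subgroup G, sSup (Fam A) ≤ H → H ≠ ⊤ →
        ((sSup (Fam A)).subgroupOf H).IsSubnormal := by
      intro H hYH hH
      obtain ⟨X, h1, h2, h3, h4, h5⟩ := closure_le H (hAY.trans hYH) hH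
      have hXY : (X.subgroupOf (sSup (Fam A))).IsSubnormal := subn_mono hYH h3
      have hXtop : X.subgroupOf (sSup (Fam A)) = ⊤ := by
        apply eq_top_of_isSubnormal_of_normalClosure hXY
        rw [eq_top_iff, ← hYnc]
        apply Subgroup.normalClosure_mono
        intro y hy
        exact h1 hy
      have hYX : sSup (Fam A) ≤ X := Subgroup.subgroupOf_eq_top.mp hXtop
      have e : X = sSup (Fam A) := le_antisymm h5 hYX
      exact e ▸ h3
    have hYnotsub : ¬ (sSup (Fam A)).IsSubnormal := by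
      intro hs
      apply hY
      apply eq_top_of_isSubnormal_of_normalClosure hs
      rw [eq_top_iff, ← hnc]
      exact Subgroup.normalClosure_mono hAY
    obtain ⟨M, hM, hYM, huniq⟩ := zipper (sSup (Fam A)) hYnotsub hYsub
    refine ⟨M, ⟨hM, hAY.trans hYM⟩, ?_⟩
    rintro K ⟨hK, hAK⟩
    by_contra hKM
    have hAneY : A ≠ sSup (Fam A) := fun e => hKM (huniq K hK (e ▸ hAK))
    have hyp : Hyp A M :=
      { coatom := hM
        le := hAY.trans hYM
        nsub := by
          intro hs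
          have hAY' : (A.subgroupOf (sSup (Fam A))).IsSubnormal := subn_mono hYM hs
          have := eq_top_of_isSubnormal_of_normalClosure hAY' hYnc
          exact hAneY (le_antisymm hAY (Subgroup.subgroupOf_eq_top.mp this))
        sub := by
          intro H hAH hH hHM
          obtain ⟨X, h1, h2, h3, h4, h5⟩ := closure_le H hAH hH
          by_cases c : X = A
          · exact c ▸ h3
          · exfalso
            have hXne : X ≠ ⊤ := fun e => hH (top_le_iff.mp (e ▸ h2))
            have hcard : Nat.card A < Nat.card X := by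
              by_contra hh
              exact c (Subgroup.eq_of_le_of_card_ge h1 (not_lt.mp hh)).symm
            have hXnc : Subgroup.normalClosure (X : Set G) = ⊤ := by
              rw [eq_top_iff, ← hnc]
              exact Subgroup.normalClosure_mono h1
            have hlt : Nat.card G - Nat.card X < n := by
              have : Nat.card X ≤ Nat.card G := Subgroup.card_le_card_group X
              omega
            rcases IH _ hlt X rfl hXne hXnc with hh | ⟨M₀, _, hu⟩
            · apply hY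
              rw [eq_top_iff, ← hh]
              exact sSup_le_sSup (fam_subset h1 h4)
            · obtain ⟨L, hL, hHL⟩ := (eq_top_or_exists_le_coatom H).resolve_left hH
              have e1 := hu M ⟨hM, h5.trans hYM⟩
              have e2 := hu L ⟨hL, h2.trans hHL⟩
              have e3 : L = M := e2.trans e1.symm
              exact hHM (e3 ▸ hHL)
        nc := hnc
        ih := by
          intro T hT hTne hTnc
          have hlt : Nat.card G - Nat.card T < n := by
            have : Nat.card T ≤ Nat.card G := Subgroup.card_le_card_group T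
            omega
          exact IH _ hlt T rfl hTne hTnc }
    exact caseII hyp hK hAK hKM

theorem flavell [Finite G] (A : Subgroup G) (hA : Subgroup.normalClosure (A : Set G) = ⊤)
    (hAG : A ≠ ⊤) :
    sSup {H : Subgroup G | A ≤ H ∧ H ≠ ⊤ ∧
      Subgroup.normalClosure ((A.subgroupOf H : Subgroup ↥H) : Set ↥H) = ⊤} = ⊤ ∨
      ∃! M : Subgroup G, IsCoatom M ∧ A ≤ M :=
  flavell_aux _ A rfl hAG hA

end Cfsg.Agent.Lib.helper17.Flavell
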