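import Mathlib
import Cfsg.Agent.Lib.helper17.SL25Words

set_option autoImplicit false

namespace Cfsg.Agent.Lib.helper17.SL25

theorem words_map {G H : Type*} [Mul G] [One G] [Mul H] [One H] (f : G → H) (h1 : f 1 = 1)
    (hm : ∀ a b, f (a * b) = f a * f b) (x y z : G) :
    (words x y z).map f = words (f x) (f y) (f z) := by
  simp only [words, List.map_cons, List.map_nil, hm, h1]

theorem words_length {G : Type*} [Mul G] [One G] (x y z : G) : (words x y z).length = 120 := rfl

theorem words_head {G : Type*} [Mul G] [One G] (x y z : G) :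
    words x y z = 1 :: (words x y z).tail := rfl

/-- entries of a matrix in `SL₂` -/
def enc {R : Type} [CommRing R] (A : Matrix.SpecialLinearGroup (Fin 2) R) : M2 R :=
  ⟨A 0 0, A 0 1, A 1 0, A 1 1⟩

theorem enc_one {R : Type} [CommRing R] : enc (1 : Matrix.SpecialLinearGroup (Fin 2) R) = 1 := by
  show (⟨_, _, _, _⟩ : M2 R) = ⟨1, 0, 0, 1⟩
  simp

theorem enc_mul {R : Type} [CommRing R] (A B : Matrix.SpecialLinearGroup (Fin 2) R) :
    enc (A * B) = enc A * enc B := by
  show (⟨_, _, _, _⟩ : M2 R) = ⟨_, _, _, _⟩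
  simp [enc, Matrix.mul_apply, Fin.sum_univ_two]

theorem enc_injective {R : Type} [CommRing R] :
    Function.Injective (enc : Matrix.SpecialLinearGroup (Fin 2) R → M2 R) := by
  intro A B h
  have h' : (⟨A 0 0, A 0 1, A 1 0, A 1 1⟩ : M2 R) = ⟨B 0 0, B 0 1, B 1 0, B 1 1⟩ := h
  rw [M2.mk.injEq] at h'
  obtain ⟨h1, h2, h3, h4⟩ := h'
  ext i j
  fin_cases i <;> fin_cases j <;> assumption

theorem enc_det {R : Type} [CommRing R] (A : Matrix.SpecialLinearGroup (Fin 2) R) :
    A 0 0 * A 1 1 - A 0 1 * A 1 0 = 1 := by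
  have h := A.det_coe
  rw [Matrix.det_fin_two] at h
  exact h

/-- the relators of the presentation of `SL(2,5)` -/
def rels : Set (FreeGroup (Fin 3)) :=
  {FreeGroup.of (0 : Fin 3) ^ 3, FreeGroup.of (1 : Fin 3) ^ 5, FreeGroup.of (2 : Fin 3) ^ 2,
    (FreeGroup.of (2 : Fin 3))⁻¹ * FreeGroup.of 0 * FreeGroup.of 2 * (FreeGroup.of (0 : Fin 3))⁻¹,
    (FreeGroup.of (2 : Fin 3))⁻¹ * FreeGroup.of 1 * FreeGroup.of 2 * (FreeGroup.of (1 : Fin 3))⁻¹,
    (FreeGroup.of (0 : Fin 3) * FreeGroup.of 1) ^ 2 * (FreeGroup.of (2 : Fin 3))⁻¹}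

/-- the generators of the presented group -/
def gx : PresentedGroup rels := PresentedGroup.of 0
def gy : PresentedGroup rels := PresentedGroup.of 1
def gz : PresentedGroup rels := PresentedGroup.of 2

/-- conversion of the relations to positive words -/
theorem pos_rels {G : Type*} [Group G] {x y z : G} (hx : x ^ 3 = 1) (hy : y ^ 5 = 1) (hz : z ^ 2 = 1)
    (hzx : z⁻¹ * x * z * x⁻¹ = 1) (hzy : z⁻¹ * y * z * y⁻¹ = 1) (hxy : (x * y) ^ 2 * z⁻¹ = 1) :
    x * x * x = 1 ∧ y * y * y * y * y = 1 ∧ z * z = 1 ∧ x * z * x * x * z = 1 ∧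
    y * z * y * y * y * y * z = 1 ∧ x * y * x * y * z = 1 := by
  have hzi : z⁻¹ = z := by
    rw [inv_eq_iff_mul_eq_one, ← pow_two]; exact hz
  have hxi : x⁻¹ = x * x := by
    rw [inv_eq_iff_mul_eq_one, ← mul_assoc]
    rw [pow_succ, pow_succ, pow_one] at hx; exact hx
  have hyi : y⁻¹ = y * y * y * y := by
    rw [inv_eq_iff_mul_eq_one, ← mul_assoc, ← mul_assoc, ← mul_assoc]
    rw [pow_succ, pow_succ, pow_succ, pow_succ, pow_one] at hy; exact hy
  have hcx : x * z = z * x := by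
    have h : z⁻¹ * x * z = x := by
      have := congrArg (· * x) hzx
      simpa using this
    rw [← h]; group
    rw [show z ^ (-1 : ℤ) * x * z = x from by simpa using h]
  have hcy : y * z = z * y := by
    have h : z⁻¹ * y * z = y := by
      have := congrArg (· * y) hzy
      simpa using this
    rw [← h]; group
    rw [show z ^ (-1 : ℤ) * y * z = y from by simpa using h]
  have hxx : x * x * x = 1 := by rw [pow_succ, pow_succ, pow_one] at hx; exact hx
  have hyy : y * y * y * y * y = 1 := by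
    rw [pow_succ, pow_succ, pow_succ, pow_succ, pow_one] at hy; exact hy
  have hzz : z * z = 1 := by rw [pow_two] at hz; exact hz
  refine ⟨hxx, hyy, hzz, ?_, ?_, ?_⟩
  · calc x * z * x * x * z = z * (x * x * x) * z := by rw [hcx]; group
      _ = 1 := by rw [hxx, mul_one, hzz]
  · calc y * z * y * y * y * y * z = z * (y * y * y * y * y) * z := by rw [hcy]; group
      _ = 1 := by rw [hyy, mul_one, hzz]
  · have h : (x * y) ^ 2 = z := by
      have := congrArg (· * z) hxy
      simpa using this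
    calc x * y * x * y * z = (x * y) ^ 2 * z := by rw [pow_two]; group
      _ = 1 := by rw [h, hzz]

theorem gens_rels : gx ^ 3 = 1 ∧ gy ^ 5 = 1 ∧ gz ^ 2 = 1 ∧ gz⁻¹ * gx * gz * gx⁻¹ = 1 ∧
    gz⁻¹ * gy * gz * gy⁻¹ = 1 ∧ (gx * gy) ^ 2 * gz⁻¹ = 1 := by
  refine ⟨?_, ?_, ?_, ?_, ?_, ?_⟩
  · have h1 : (PresentedGroup.mk rels) (FreeGroup.of (0 : Fin 3) ^ 3) = 1 :=
      PresentedGroup.one_of_mem (by simp [rels])
    rw [map_pow] at h1
    exact h1
  · have h1 : (PresentedGroup.mk rels) (FreeGroup.of (1 : Fin 3) ^ 5) = 1 :=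
      PresentedGroup.one_of_mem (by simp [rels])
    rw [map_pow] at h1
    exact h1
  · have h1 : (PresentedGroup.mk rels) (FreeGroup.of (2 : Fin 3) ^ 2) = 1 :=
      PresentedGroup.one_of_mem (by simp [rels])
    rw [map_pow] at h1
    exact h1
  · have h1 : (PresentedGroup.mk rels) ((FreeGroup.of (2 : Fin 3))⁻¹ * FreeGroup.of 0 * FreeGroup.of 2 *
        (FreeGroup.of (0 : Fin 3))⁻¹) = 1 :=
      PresentedGroup.one_of_mem (by simp [rels])
    rw [map_mul, map_mul, map_mul, map_inv, map_inv] at h1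
    exact h1
  · have h1 : (PresentedGroup.mk rels) ((FreeGroup.of (2 : Fin 3))⁻¹ * FreeGroup.of 1 * FreeGroup.of 2 *
        (FreeGroup.of (1 : Fin 3))⁻¹) = 1 :=
      PresentedGroup.one_of_mem (by simp [rels])
    rw [map_mul, map_mul, map_mul, map_inv, map_inv] at h1
    exact h1
  · have h1 : (PresentedGroup.mk rels) ((FreeGroup.of (0 : Fin 3) * FreeGroup.of 1) ^ 2 *
        (FreeGroup.of (2 : Fin 3))⁻¹) = 1 :=
      PresentedGroup.one_of_mem (by simp [rels])
    rw [map_mul, map_pow, map_mul, map_inv] at h1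
    exact h1

/-- every element of the presented group is one of the 120 words -/
theorem mem_words (g : PresentedGroup rels) : g ∈ words gx gy gz := by
  obtain ⟨h1, h2, h3, h4, h5, h6⟩ := gens_rels
  obtain ⟨hx, hy, hz, hzx, hzy, hxy⟩ := pos_rels h1 h2 h3 h4 h5 h6
  obtain ⟨hLx, hLy, hLz⟩ := words_closed gx gy gz hx hy hz hzx hzy hxy
  obtain ⟨L, hL⟩ : ∃ L, L = words gx gy gz := ⟨_, rfl⟩
  rw [← hL] at hLx hLy hLz ⊢
  have h1L : (1 : PresentedGroup rels) ∈ L := by
    rw [hL, words_head]; exact List.mem_cons_self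
  have hxinv : gx⁻¹ = gx * gx := by
    rw [inv_eq_iff_mul_eq_one, ← mul_assoc]
    exact hx
  have hyinv : gy⁻¹ = gy * gy * gy * gy := by
    rw [inv_eq_iff_mul_eq_one, ← mul_assoc, ← mul_assoc, ← mul_assoc]
    exact hy
  have hzinv : gz⁻¹ = gz := by
    rw [inv_eq_iff_mul_eq_one]
    exact hz
  have hLxi : ∀ c ∈ L, c * gx⁻¹ ∈ L := by
    intro c hc
    rw [hxinv, ← mul_assoc]
    exact hLx _ (hLx _ hc)
  have hLyi : ∀ c ∈ L, c * gy⁻¹ ∈ L := by
    intro c hc
    rw [hyinv, ← mul_assoc, ← mul_assoc, ← mul_assoc]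
    exact hLy _ (hLy _ (hLy _ (hLy _ hc)))
  have hLzi : ∀ c ∈ L, c * gz⁻¹ ∈ L := by
    intro c hc
    rw [hzinv]
    exact hLz _ hc
  have hclosed : ∀ g : FreeGroup (Fin 3), ∀ c ∈ L, c * PresentedGroup.mk rels g ∈ L := by
    intro g
    induction g using FreeGroup.induction_on with
    | C1 =>
      intro c hc
      rw [map_one, mul_one]
      exact hc
    | of i =>
      intro c hc
      fin_cases i
      · exact hLx c hc
      · exact hLy c hc
      · exact hLz c hc
    | inv_of i ih =>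
      intro c hc
      rw [map_inv]
      fin_cases i
      · exact hLxi c hc
      · exact hLyi c hc
      · exact hLzi c hc
    | mul a b iha ihb =>
      intro c hc
      rw [map_mul, ← mul_assoc]
      exact ihb _ (iha _ hc)
  obtain ⟨g', rfl⟩ := PresentedGroup.mk_surjective rels g
  have := hclosed g' 1 h1L
  rwa [one_mul] at this

theorem surj_words : Function.Surjective
    (fun i : Fin (words gx gy gz).length => (words gx gy gz).get i) := by
  intro g
  obtain ⟨i, hi⟩ := List.mem_iff_get.mp (mem_words g)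
  exact ⟨i, hi⟩

instance finite_pres : Finite (PresentedGroup rels) := Finite.of_surjective _ surj_words

theorem card_pres_le : Nat.card (PresentedGroup rels) ≤ 120 := by
  have := Nat.card_le_card_of_surjective _ surj_words
  rw [Nat.card_fin, words_length] at this
  exact this

/-- the universal property -/
theorem lift_rels {G : Type*} [Group G] {x y z : G} (hx : x ^ 3 = 1) (hy : y ^ 5 = 1) (hz : z ^ 2 = 1)
    (hzx : z⁻¹ * x * z * x⁻¹ = 1) (hzy : z⁻¹ * y * z * y⁻¹ = 1) (hxy : (x * y) ^ 2 * z⁻¹ = 1) :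
    ∀ r ∈ rels, FreeGroup.lift (![x, y, z] : Fin 3 → G) r = 1 := by
  intro r hr
  simp only [rels, Set.mem_insert_iff, Set.mem_singleton_iff] at hr
  rcases hr with rfl | rfl | rfl | rfl | rfl | rfl
  · rw [map_pow, FreeGroup.lift_apply_of]
    exact hx
  · rw [map_pow, FreeGroup.lift_apply_of]
    exact hy
  · rw [map_pow, FreeGroup.lift_apply_of]
    exact hz
  · rw [map_mul, map_mul, map_mul, map_inv, map_inv, FreeGroup.lift_apply_of, FreeGroup.lift_apply_of]
    exact hzx
  · rw [map_mul, map_mul, map_mul, map_inv, map_inv, FreeGroup.lift_apply_of, FreeGroup.lift_apply_of]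
    exact hzy
  · rw [map_mul, map_pow, map_mul, map_inv, FreeGroup.lift_apply_of, FreeGroup.lift_apply_of,
      FreeGroup.lift_apply_of]
    exact hxy

theorem exists_hom {G : Type*} [Group G] {x y z : G} (hx : x ^ 3 = 1) (hy : y ^ 5 = 1) (hz : z ^ 2 = 1)
    (hzx : z⁻¹ * x * z * x⁻¹ = 1) (hzy : z⁻¹ * y * z * y⁻¹ = 1) (hxy : (x * y) ^ 2 * z⁻¹ = 1) :
    ∃ f : PresentedGroup rels →* G, f gx = x ∧ f gy = y ∧ f gz = z :=
  ⟨PresentedGroup.toGroup (lift_rels hx hy hz hzx hzy hxy),
    PresentedGroup.toGroup.of (lift_rels hx hy hz hzx hzy hxy),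
    PresentedGroup.toGroup.of (lift_rels hx hy hz hzx hzy hxy),
    PresentedGroup.toGroup.of (lift_rels hx hy hz hzx hzy hxy)⟩

/-- images of the words under a hom followed by `enc` -/
theorem words_image {G : Type*} [Group G] {R : Type} [CommRing R]
    (f : G →* Matrix.SpecialLinearGroup (Fin 2) R) (x y z : G) :
    (words x y z).map (fun g => enc (f g)) = words (enc (f x)) (enc (f y)) (enc (f z)) :=
  words_map (fun g => enc (f g)) (by rw [map_one, enc_one]) (fun a b => by rw [map_mul, enc_mul]) x y z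

/-- the three generators in `SL(2,5)` -/
def X5 : Matrix.SpecialLinearGroup (Fin 2) (ZMod 5) := ⟨!![0, 1; 4, 4], by rw [Matrix.det_fin_two_of]; decide⟩
def Y5 : Matrix.SpecialLinearGroup (Fin 2) (ZMod 5) := ⟨!![0, 4; 1, 2], by rw [Matrix.det_fin_two_of]; decide⟩
def Z5 : Matrix.SpecialLinearGroup (Fin 2) (ZMod 5) := ⟨!![4, 0; 0, 4], by rw [Matrix.det_fin_two_of]; decide⟩

theorem enc_X5 : enc X5 = ⟨0, 1, 4, 4⟩ := rfl
theorem enc_Y5 : enc Y5 = ⟨0, 4, 1, 2⟩ := rfl
theorem enc_Z5 : enc Z5 = ⟨4, 0, 0, 4⟩ := rfl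

theorem m2_pow_succ {R : Type} [CommRing R] (A : Matrix.SpecialLinearGroup (Fin 2) R) (n : ℕ) :
    enc (A ^ (n + 1)) = enc (A ^ n) * enc A := by
  rw [pow_succ, enc_mul]

theorem X5_pow : X5 ^ 3 = 1 := by
  apply enc_injective
  rw [m2_pow_succ, m2_pow_succ, pow_one, enc_one, enc_X5]
  decide

theorem Y5_pow : Y5 ^ 5 = 1 := by
  apply enc_injective
  rw [m2_pow_succ, m2_pow_succ, m2_pow_succ, m2_pow_succ, pow_one, enc_one, enc_Y5]
  decide

theorem Z5_pow : Z5 ^ 2 = 1 := by
  apply enc_injective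
  rw [m2_pow_succ, pow_one, enc_one, enc_Z5]
  decide

theorem eq_one_of_mul_eq {G : Type*} [Group G] {x z : G} (h : x * z = z * x) : z⁻¹ * x * z * x⁻¹ = 1 := by
  rw [mul_assoc z⁻¹, h]; group

theorem eq_one_of_sq_eq {G : Type*} [Group G] {t z : G} (h : t * t = z) : t ^ 2 * z⁻¹ = 1 := by
  rw [pow_two, h, mul_inv_cancel]

theorem ZX5 : Z5⁻¹ * X5 * Z5 * X5⁻¹ = 1 := by
  apply eq_one_of_mul_eq
  apply enc_injective
  rw [enc_mul, enc_mul, enc_X5, enc_Z5]
  decide

theorem ZY5 : Z5⁻¹ * Y5 * Z5 * Y5⁻¹ = 1 := by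
  apply eq_one_of_mul_eq
  apply enc_injective
  rw [enc_mul, enc_mul, enc_Y5, enc_Z5]
  decide

theorem XY5 : (X5 * Y5) ^ 2 * Z5⁻¹ = 1 := by
  apply eq_one_of_sq_eq
  apply enc_injective
  rw [enc_mul, enc_mul, enc_X5, enc_Y5, enc_Z5]
  decide

/-- the presented group is `SL(2,5)` -/
theorem iso_SL25 : Nonempty (PresentedGroup rels ≃* Matrix.SpecialLinearGroup (Fin 2) (ZMod 5)) := by
  obtain ⟨f, hfx, hfy, hfz⟩ := exists_hom X5_pow Y5_pow Z5_pow ZX5 ZY5 XY5
  have himg : (words gx gy gz).map (fun g => enc (f g)) = lits5 := by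
    rw [words_image, hfx, hfy, hfz, enc_X5, enc_Y5, enc_Z5, words_lits5]
  have hinj : Function.Injective f := by
    intro g1 g2 h
    obtain ⟨i, hi⟩ := List.mem_iff_get.mp (mem_words g1)
    obtain ⟨j, hj⟩ := List.mem_iff_get.mp (mem_words g2)
    have hlen : (words gx gy gz).length = lits5.length := by rw [← himg, List.length_map]
    have e1 : lits5.get ⟨i, by rw [← hlen]; exact i.2⟩ = enc (f g1) := by
      have := List.getElem_map (fun g => enc (f g)) (l := words gx gy gz) (i := i) (h := by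
        rw [List.length_map]; exact i.2)
      simp only [himg] at this
      rw [← hi]
      exact this
    have e2 : lits5.get ⟨j, by rw [← hlen]; exact j.2⟩ = enc (f g2) := by
      have := List.getElem_map (fun g => enc (f g)) (l := words gx gy gz) (i := j) (h := by
        rw [List.length_map]; exact j.2)
      simp only [himg] at this
      rw [← hj]
      exact this
    have e3 : lits5.get ⟨i, by rw [← hlen]; exact i.2⟩ = lits5.get ⟨j, by rw [← hlen]; exact j.2⟩ := by
      rw [e1, e2, h]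
    have e4 := (List.Nodup.get_inj_iff lits5_nodup).mp e3
    have e5 : (i : ℕ) = j := by simpa using e4
    rw [← hi, ← hj, Fin.ext e5]
  have hsurj : Function.Surjective f := by
    intro A
    have hmem : enc A ∈ lits5 := lits5_all _ _ _ _ (enc_det A)
    rw [← himg, List.mem_map] at hmem
    obtain ⟨g, -, hg⟩ := hmem
    exact ⟨g, enc_injective hg⟩
  exact ⟨MulEquiv.ofBijective f ⟨hinj, hsurj⟩⟩

end Cfsg.Agent.Lib.helper17.SL25
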