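import Mathlib
import Cfsg.Prelude.Def_Classical
import Cfsg.Agent.Lib.helper17.SL33
import Cfsg.Agent.Lib.helper17.U33
import Cfsg.Agent.Lib.helper17.U32
import Cfsg.Agent.Lib.helper17.U32c
import Cfsg.Agent.Lib.helper1.Quat
import Cfsg.Agent.Lib.helper23.BurnsidePQ

set_option autoImplicit false

namespace Cfsg.Agent.Lib.helper17.U32

open Cfsg.Agent.Lib.helper17.SL33
open Cfsg.Agent.Lib.helper17.U33 (slEquiv3 slEquiv3_apply M3.mul_def M3.one_def)

/-- the concrete group -/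
abbrev SUc : Type := Cfsg.SU 3 F4 2

/-- decoding -/
def dec3g (m : M3 F4) (h : det3 m = 1) : Matrix.SpecialLinearGroup (Fin 3) F4 :=
  ⟨!![m.a, m.b, m.c; m.d, m.e, m.f; m.g, m.h, m.i], by
    rw [Matrix.det_fin_three]
    exact h⟩

theorem enc3_dec3g (m : M3 F4) (h : det3 m = 1) : enc3 (dec3g m h) = m := by
  cases m
  rfl

theorem mem_SU_iff_unit (g : Matrix.SpecialLinearGroup (Fin 3) F4) :
    g ∈ Cfsg.SU 3 F4 2 ↔ unit2 (enc3 g) := mem_SU_iff2 F4.two_eq_zero g

theorem mem_SU_iff_list (g : Matrix.SpecialLinearGroup (Fin 3) F4) :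
    g ∈ Cfsg.SU 3 F4 2 ↔ enc3 g ∈ litsU := by
  rw [mem_SU_iff_unit]
  constructor
  · intro hu
    have hdet := enc3_det g
    obtain ⟨m, hm⟩ : ∃ m : M3 F4, m = enc3 g := ⟨_, rfl⟩
    rw [← hm] at hu hdet ⊢
    obtain ⟨a, b, c, d, e, f, g', h, i⟩ := m
    have hu' := hu
    obtain ⟨⟨h00, h01, h02⟩, ⟨h10, h11, h12⟩, ⟨h20, h21, h22⟩⟩ := hu'
    exact litsU_complete a d g' h00 b e h ⟨h11, h01⟩ c f i ⟨hu, hdet⟩
  · intro h
    exact (litsU_spec _ h).2

/-- encoding of elements of the concrete group -/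
def encS (x : SUc) : M3 F4 := enc3 x.1

theorem encS_injective : Function.Injective encS := fun _ _ h => Subtype.ext (enc3_injective h)
theorem encS_mul (x y : SUc) : encS (x * y) = encS x * encS y := enc3_mul x.1 y.1
theorem encS_one : encS 1 = 1 := enc3_one
theorem encS_mem (x : SUc) : encS x ∈ litsU := (mem_SU_iff_list x.1).mp x.2

/-- the element with given encoding -/
def suc (m : M3 F4) (h : m ∈ litsU) : SUc :=
  ⟨dec3g m (litsU_spec m h).1, (mem_SU_iff_list _).mpr (by rw [enc3_dec3g]; exact h)⟩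

theorem encS_suc (m : M3 F4) (h : m ∈ litsU) : encS (suc m h) = m :=
  enc3_dec3g m (litsU_spec m h).1

theorem card_SUc : Nat.card SUc = 216 := by
  have := card_of_list (enc3 : Matrix.SpecialLinearGroup (Fin 3) F4 → M3 F4) enc3_injective
    (Cfsg.SU 3 F4 2 : Set _) litsU litsU_nodup (fun x => mem_SU_iff_list x)
    (fun m hm => ⟨dec3g m (litsU_spec m hm).1, enc3_dec3g m _⟩)
  rw [litsU_length] at this
  exact this

instance SUc_finite : Finite SUc := Nat.finite_of_card_ne_zero (by rw [card_SUc]; norm_num)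

/-! ### the centre -/

def dgq : M3 F4 := ⟨⟨false, true⟩, ⟨false, false⟩, ⟨false, false⟩, ⟨false, false⟩, ⟨true, true⟩,
  ⟨false, false⟩, ⟨false, false⟩, ⟨false, false⟩, ⟨true, false⟩⟩
def pmq : M3 F4 := ⟨⟨false, false⟩, ⟨false, false⟩, ⟨true, false⟩, ⟨true, false⟩, ⟨false, false⟩,
  ⟨false, false⟩, ⟨false, false⟩, ⟨true, false⟩, ⟨false, false⟩⟩

theorem dgq_mem : dgq ∈ litsU := by decide +kernel
theorem pmq_mem : pmq ∈ litsU := by decide +kernel

set_option maxRecDepth 100000 in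
theorem litsZ_complete : ∀ m ∈ litsU, (dgq * m = m * dgq ∧ pmq * m = m * pmq) → m ∈ litsZ := by
  decide +kernel

set_option maxRecDepth 100000 in
theorem litsZ_comm : ∀ m ∈ litsZ, ∀ n ∈ litsU, m * n = n * m := by decide +kernel

theorem litsZ_sub : ∀ m ∈ litsZ, m ∈ litsP := by decide +kernel

set_option maxRecDepth 100000 in
theorem litsP_sub : ∀ m ∈ litsP, m ∈ litsU := by decide +kernel

theorem litsP_cube : ∀ m ∈ litsP, m * (m * m) = 1 := by decide +kernel

set_option maxRecDepth 100000 in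
theorem litsP_complete : ∀ m ∈ litsU, m * (m * m) = 1 → m ∈ litsP := by decide +kernel

set_option maxRecDepth 100000 in
theorem litsP_mul : ∀ m ∈ litsP, ∀ n ∈ litsP, m * n ∈ litsP := by decide +kernel

theorem center_iff (x : SUc) : x ∈ Subgroup.center SUc ↔ encS x ∈ litsZ := by
  rw [Subgroup.mem_center_iff]
  constructor
  · intro h
    apply litsZ_complete _ (encS_mem x)
    constructor
    · have := congrArg encS (h (suc dgq dgq_mem))
      rwa [encS_mul, encS_mul, encS_suc] at this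
    · have := congrArg encS (h (suc pmq pmq_mem))
      rwa [encS_mul, encS_mul, encS_suc] at this
  · intro h y
    apply encS_injective
    rw [encS_mul, encS_mul]
    exact (litsZ_comm _ h _ (encS_mem y)).symm

theorem card_center : Nat.card (Subgroup.center SUc) = 3 := by
  have := card_of_list encS encS_injective (Subgroup.center SUc : Set SUc) litsZ litsZ_nodup
    center_iff (fun m hm => ⟨suc m (litsP_sub m (litsZ_sub m hm)), encS_suc m _⟩)
  rw [litsZ_length] at this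
  exact this

theorem card_PSUc : Nat.card (Cfsg.PSU 3 F4 2) = 72 := by
  have h := Subgroup.card_eq_card_quotient_mul_card_subgroup (Subgroup.center SUc)
  rw [card_SUc, card_center] at h
  show Nat.card (SUc ⧸ Subgroup.center SUc) = 72
  omega

theorem solvable_PSUc : Group.IsSolvable (Cfsg.PSU 3 F4 2) := by
  have : Finite (Cfsg.PSU 3 F4 2) := Nat.finite_of_card_ne_zero (by rw [card_PSUc]; norm_num)
  exact Cfsg.Agent.Lib.helper23.burnside_paqb 2 3 3 2 Nat.prime_two Nat.prime_three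
    (by rw [card_PSUc]; norm_num)

/-- `PSU(3,2)` has order 72 and is solvable -/
theorem psu32_card_solvable {F : Type*} [Field F] [Fintype F] (hF : Fintype.card F = 4) :
    Nat.card (Cfsg.PSU 3 F 2) = 72 ∧ Group.IsSolvable (Cfsg.PSU 3 F 2) := by
  have e : F4 ≃+* F := FiniteField.ringEquivOfCardEq (by rw [F4.card, hF])
  have E := psuEquiv2 e F4.two_eq_zero
  refine ⟨?_, ?_⟩
  · rw [← Nat.card_congr E.toEquiv]
    exact card_PSUc
  · have := solvable_PSUc
    exact Group.isSolvable_of_surjective (f := E.toMonoidHom) E.surjective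

/-! ### the normal subgroup of order 27 -/

theorem cube_eq (x : SUc) : x ^ 3 = x * (x * x) := by rw [pow_succ', pow_two]

theorem cube_iff (x : SUc) : x ^ 3 = 1 ↔ encS x ∈ litsP := by
  constructor
  · intro h
    apply litsP_complete _ (encS_mem x)
    have := congrArg encS h
    rwa [cube_eq, encS_mul, encS_mul, encS_one] at this
  · intro h
    apply encS_injective
    rw [cube_eq, encS_mul, encS_mul, encS_one]
    exact litsP_cube _ h

/-- the subgroup of the elements of order dividing 3 -/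
def Pc : Subgroup SUc where
  carrier := {x | x ^ 3 = 1}
  one_mem' := one_pow 3
  mul_mem' := by
    intro x y hx hy
    rw [Set.mem_ofPred_eq, cube_iff] at *
    rw [encS_mul]
    exact litsP_mul _ hx _ hy
  inv_mem' := by
    intro x hx
    rw [Set.mem_ofPred_eq] at *
    rw [inv_pow, hx, inv_one]

theorem mem_Pc (x : SUc) : x ∈ Pc ↔ x ^ 3 = 1 := Iff.rfl

instance Pc_normal : Pc.Normal := by
  constructor
  intro n hn g
  rw [mem_Pc] at *
  rw [conj_pow, hn, mul_one, mul_inv_cancel]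

theorem card_Pc : Nat.card Pc = 27 := by
  have := card_of_list encS encS_injective (Pc : Set SUc) litsP litsP_nodup (fun x => cube_iff x)
    (fun m hm => ⟨suc m (litsP_sub m hm), encS_suc m _⟩)
  rw [litsP_length] at this
  exact this

theorem center_le_Pc : Subgroup.center SUc ≤ Pc := by
  intro x hx
  rw [mem_Pc, cube_iff]
  exact litsZ_sub _ ((center_iff x).mp hx)

theorem card_quot_Pc : Nat.card (SUc ⧸ Pc) = 8 := by
  have h := Subgroup.card_eq_card_quotient_mul_card_subgroup Pc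
  rw [card_SUc, card_Pc] at h
  omega

/-! ### the quaternion quotient -/

/-- powers -/
def mpw (m : M3 F4) : ℕ → M3 F4
  | 0 => 1
  | k + 1 => m * mpw m k

theorem encS_pow (x : SUc) (k : ℕ) : encS (x ^ k) = mpw (encS x) k := by
  induction k with
  | zero => rw [pow_zero, encS_one]; rfl
  | succ k ih => rw [pow_succ', encS_mul, ih]; rfl

theorem wq_mem : wq ∈ litsU := by decide +kernel
theorem bq_mem : bq ∈ litsU := by decide +kernel

theorem wq_rel : mpw wq 4 = 1 ∧ bq * bq = mpw wq 2 ∧ wq * (bq * wq) = bq ∧ mpw wq 2 ∉ litsP := by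
  decide +kernel

theorem bq_notin : ∀ m : Fin 5, bq * mpw wq m.val ∉ litsP := by decide +kernel

def wS : SUc := suc wq wq_mem
def bS : SUc := suc bq bq_mem

theorem encS_wS : encS wS = wq := encS_suc _ _
theorem encS_bS : encS bS = bq := encS_suc _ _

theorem wS_pow4 : wS ^ 4 = 1 := by
  apply encS_injective
  rw [encS_pow, encS_wS, encS_one]
  exact wq_rel.1

theorem bS_sq : bS * bS = wS ^ 2 := by
  apply encS_injective
  rw [encS_pow, encS_mul, encS_wS, encS_bS]
  exact wq_rel.2.1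

theorem wS_conj : bS * wS * bS⁻¹ = wS⁻¹ := by
  have h : wS * (bS * wS) = bS := by
    apply encS_injective
    rw [encS_mul, encS_mul, encS_wS, encS_bS]
    exact wq_rel.2.2.1
  calc bS * wS * bS⁻¹ = wS⁻¹ * (wS * (bS * wS)) * bS⁻¹ := by group
    _ = wS⁻¹ := by rw [h]; group

theorem W_pow4 : (wS : SUc ⧸ Pc) ^ (2 * 2) = 1 := by
  rw [← QuotientGroup.mk_pow]
  show ((wS ^ 4 : SUc) : SUc ⧸ Pc) = 1
  rw [wS_pow4]
  rfl

theorem B_sq : (bS : SUc ⧸ Pc) * (bS : SUc ⧸ Pc) = (wS : SUc ⧸ Pc) ^ 2 := by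
  rw [← QuotientGroup.mk_pow, ← QuotientGroup.mk_mul, bS_sq]

theorem W_conj : (bS : SUc ⧸ Pc) * (wS : SUc ⧸ Pc) * (bS : SUc ⧸ Pc)⁻¹ = (wS : SUc ⧸ Pc)⁻¹ := by
  rw [← QuotientGroup.mk_inv, ← QuotientGroup.mk_mul, ← QuotientGroup.mk_mul, wS_conj,
    QuotientGroup.mk_inv]

theorem W_order : orderOf (wS : SUc ⧸ Pc) = 2 * 2 := by
  have hp2 : Fact (Nat.Prime 2) := ⟨Nat.prime_two⟩
  have h := orderOf_eq_prime_pow (x := (wS : SUc ⧸ Pc)) (p := 2) (n := 1) ?_ ?_
  · exact h.trans (by norm_num)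
  · intro h1
    rw [pow_one, ← QuotientGroup.mk_pow, QuotientGroup.eq_one_iff, mem_Pc, cube_iff, encS_pow,
      encS_wS] at h1
    exact wq_rel.2.2.2 h1
  · exact W_pow4

theorem B_not_mem : (bS : SUc ⧸ Pc) ∉ Subgroup.zpowers (wS : SUc ⧸ Pc) := by
  intro h
  rw [Subgroup.mem_zpowers_iff] at h
  obtain ⟨k, hk⟩ := h
  rw [← zpow_mod_orderOf, W_order] at hk
  have hk0 : 0 ≤ k % ((2 * 2 : ℕ) : ℤ) := Int.emod_nonneg _ (by norm_num)
  have hk4 : k % ((2 * 2 : ℕ) : ℤ) < 4 := Int.emod_lt_of_pos _ (by norm_num)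
  obtain ⟨n, hn⟩ := Int.eq_ofNat_of_zero_le hk0
  rw [hn, zpow_natCast] at hk
  have hn4 : n < 4 := by omega
  have h1 : (bS : SUc ⧸ Pc) * (wS : SUc ⧸ Pc) ^ (4 - n) = 1 := by
    rw [← hk, ← pow_add, show n + (4 - n) = 2 * 2 by omega]
    exact W_pow4
  rw [← QuotientGroup.mk_pow, ← QuotientGroup.mk_mul, QuotientGroup.eq_one_iff, mem_Pc, cube_iff,
    encS_mul, encS_pow, encS_wS, encS_bS] at h1
  exact bq_notin ⟨4 - n, by omega⟩ h1

/-- the quotient by the normal subgroup of order 27 is quaternion -/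
noncomputable def quotEquivQ : SUc ⧸ Pc ≃* QuaternionGroup 2 := by
  have hinj := Cfsg.Agent.Lib.helper1.quatHom_injective (bS : SUc ⧸ Pc) (wS : SUc ⧸ Pc) 2 W_pow4
    B_sq W_conj W_order B_not_mem
  have hbij : Function.Bijective (Cfsg.Agent.Lib.helper1.quatHom (bS : SUc ⧸ Pc) (wS : SUc ⧸ Pc) 2
      W_pow4 B_sq W_conj) := by
    rw [Nat.bijective_iff_injective_and_card]
    refine ⟨hinj, ?_⟩
    rw [card_quot_Pc, Nat.card_eq_fintype_card, QuaternionGroup.card]
  exact (MulEquiv.ofBijective _ hbij).symm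

theorem main_F4 : ∃ (N : Subgroup (Cfsg.PSU 3 F4 2)) (_ : N.Normal), Nat.card N = 9 ∧
    (∀ x ∈ N, x ^ 3 = 1) ∧ Nonempty (Cfsg.PSU 3 F4 2 ⧸ N ≃* QuaternionGroup 2) := by
  let π : SUc ⧸ Subgroup.center SUc →* SUc ⧸ Pc :=
    QuotientGroup.map (Subgroup.center SUc) Pc (MonoidHom.id SUc)
      (by intro x hx; exact center_le_Pc hx)
  have hπ : Function.Surjective π := by
    intro y
    obtain ⟨g, rfl⟩ := QuotientGroup.mk_surjective y
    exact ⟨(g : SUc ⧸ Subgroup.center SUc), rfl⟩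
  refine ⟨π.ker, inferInstance, ?_, ?_,
    ⟨(QuotientGroup.quotientKerEquivOfSurjective π hπ).trans quotEquivQ⟩⟩
  · have h := Subgroup.card_eq_card_quotient_mul_card_subgroup π.ker
    rw [Nat.card_congr (QuotientGroup.quotientKerEquivOfSurjective π hπ).toEquiv, card_quot_Pc] at h
    have h72 : Nat.card (SUc ⧸ Subgroup.center SUc) = 72 := card_PSUc
    have h3 : 72 = 8 * Nat.card π.ker := h72.symm.trans h
    exact Nat.eq_of_mul_eq_mul_left (show 0 < 8 by norm_num) (h3.symm.trans (by norm_num))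
  · intro x hx
    obtain ⟨g, rfl⟩ := QuotientGroup.mk_surjective x
    rw [MonoidHom.mem_ker] at hx
    have hg : (g : SUc ⧸ Pc) = 1 := hx
    rw [QuotientGroup.eq_one_iff] at hg
    rw [← QuotientGroup.mk_pow, (mem_Pc g).mp hg]
    rfl

theorem transport_normal {G H Q : Type*} [Group G] [Group H] [Group Q] (E : G ≃* H)
    (h : ∃ (N : Subgroup G) (_ : N.Normal), Nat.card N = 9 ∧ (∀ x ∈ N, x ^ 3 = 1) ∧
      Nonempty (G ⧸ N ≃* Q)) :
    ∃ (N : Subgroup H) (_ : N.Normal), Nat.card N = 9 ∧ (∀ x ∈ N, x ^ 3 = 1) ∧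
      Nonempty (H ⧸ N ≃* Q) := by
  obtain ⟨N, hN, hc, he, ⟨φ⟩⟩ := h
  have hN' : (N.map E.toMonoidHom).Normal := hN.map E.toMonoidHom E.surjective
  refine ⟨N.map E.toMonoidHom, hN', ?_, ?_, ⟨?_⟩⟩
  · rw [← hc]
    exact Nat.card_congr (N.equivMapOfInjective E.toMonoidHom E.injective).symm.toEquiv
  · rintro _ ⟨n, hn, rfl⟩
    rw [← map_pow, he n hn, map_one]
  · exact (QuotientGroup.congr N (N.map E.toMonoidHom) E rfl).symm.trans φ

/-- `PSU(3,2)` is an extension of an elementary abelian group of order 9 by the quaternion group -/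
theorem psu32_structure {F : Type*} [Field F] [Fintype F] (hF : Fintype.card F = 4) :
    ∃ (N : Subgroup (Cfsg.PSU 3 F 2)) (_ : N.Normal), Nat.card N = 9 ∧ (∀ x ∈ N, x ^ 3 = 1) ∧
      Nonempty (Cfsg.PSU 3 F 2 ⧸ N ≃* QuaternionGroup 2) := by
  have e : F4 ≃+* F := FiniteField.ringEquivOfCardEq (by rw [F4.card, hF])
  exact transport_normal (psuEquiv2 e F4.two_eq_zero) main_F4

end Cfsg.Agent.Lib.helper17.U32
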